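import Cfsg.Agent.H894.CompNum

/-!
# Composition length: the numerical inequalities, second part
-/

set_option autoImplicit false

namespace Cfsg.Agent.H894

open Real

namespace ZB

variable {p f z : ℕ} (h : ZB p f z)
include h

/-- The symplectic type case. -/
theorem num_symp {r m c d : ℕ} (hr : r.Prime) (hm : 1 ≤ m) (hd : d = r ^ m)
    (hdvd : r ∣ p ^ f - 1) (hc : (c : ℝ) ≤ bd r (2 * m) 1) (hc4 : r = 3 → m = 1 → c ≤ 4) :
    ((z + 2 * m + c : ℕ) : ℝ) ≤ bd p d f := by
  have hf := h.one_le
  have hfR : (1 : ℝ) ≤ f := by exact_mod_cast hf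
  have hr2 := hr.two_le
  have hmR : (1 : ℝ) ≤ m := by exact_mod_cast hm
  have hd2 : 2 ≤ d := by
    rw [hd]
    calc 2 ≤ r := hr2
      _ = r ^ 1 := (pow_one r).symm
      _ ≤ r ^ m := Nat.pow_le_pow_right (by omega) hm
  have hd2R : (2 : ℝ) ≤ d := by exact_mod_cast hd2
  have hlogd : Real.logb 2 d = m * Real.logb 2 r := by
    rw [hd]; push_cast; rw [Real.logb_pow]
  -- it suffices to bound this
  have hmain : (z : ℝ) + 16 / 3 * Real.logb 2 d + Real.logb 2 f ≤
      (8 / 3 * Real.logb 2 p - 1) * d * f → ((z + 2 * m + c : ℕ) : ℝ) ≤ bd p d f := by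
    intro hx
    unfold bd at hc ⊢
    push_cast at hc ⊢
    rw [Real.logb_one] at hc
    rw [hlogd] at hx
    linarith
  have hlf := logb_le_sub_one hf
  have hld := logb_le_half (n := d) (by omega)
  by_cases hp : p = 2
  · subst hp
    have hr3 : 3 ≤ r := by
      rcases Nat.lt_or_ge r 3 with h3 | h3
      · have : r = 2 := by omega
        subst this
        have h4 : 2 ∣ 2 ^ f := dvd_pow_self 2 (by omega)
        have h5 : 1 ≤ 2 ^ f := Nat.one_le_two_pow
        omega
      · exact h3
    have hd3 : 3 ≤ d := by
      rw [hd]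
      calc 3 ≤ r := hr3
        _ = r ^ 1 := (pow_one r).symm
        _ ≤ r ^ m := Nat.pow_le_pow_right (by omega) hm
    have hd3R : (3 : ℝ) ≤ d := by exact_mod_cast hd3
    have hf2 : 2 ≤ f := by
      rcases Nat.lt_or_ge f 2 with h3 | h3
      · have : f = 1 := by omega
        subst this
        norm_num at hdvd
        omega
      · exact h3
    have hlog2 : Real.logb 2 ((2 : ℕ) : ℝ) = 1 := by
      push_cast; exact Real.logb_self_eq_one (by norm_num)
    rcases Nat.lt_or_ge f 3 with h3 | h3
    · have : f = 2 := by omega
      subst this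
      have hz : (z : ℝ) ≤ 1 := by exact_mod_cast h.z_two rfl rfl
      have hr3' : r = 3 := by
        norm_num at hdvd
        have := Nat.le_of_dvd (by norm_num) hdvd
        omega
      rcases Nat.lt_or_ge m 2 with hm2 | hm2
      · have hm1 : m = 1 := by omega
        have hc' : (c : ℝ) ≤ 4 := by exact_mod_cast hc4 hr3' hm1
        have hdd : d = 3 := by rw [hd, hr3', hm1]; norm_num
        subst hm1
        unfold bd
        rw [hdd, hlog2]
        push_cast
        linarith
      · apply hmain
        have hd9 : 9 ≤ d := by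
          rw [hd, hr3']
          calc 9 = 3 ^ 2 := by norm_num
            _ ≤ 3 ^ m := Nat.pow_le_pow_right (by norm_num) hm2
        have hd9R : (9 : ℝ) ≤ d := by exact_mod_cast hd9
        rw [hlog2]
        push_cast
        linarith
    · apply hmain
      have hz := h.le_two rfl
      have hf3R : (3 : ℝ) ≤ f := by exact_mod_cast h3
      rw [hlog2]
      nlinarith [mul_nonneg (sub_nonneg.2 hd3R) (sub_nonneg.2 hf3R)]
  · have hp3 : 3 ≤ p := by
      have := h.prime.two_le
      omega
    apply hmain
    have hL := le_logb_of_three_le hp3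
    set L := Real.logb 2 p with hLdef
    by_cases hcase : p = 3 ∧ f = 1
    · obtain ⟨hp3', hf1⟩ := hcase
      have hz : (z : ℝ) ≤ 1 := by exact_mod_cast h.z_p_three hp3' hf1
      subst hf1
      push_cast
      rw [Real.logb_one]
      rcases Nat.lt_or_ge d 3 with h3 | h3
      · have : d = 2 := by omega
        rw [this]
        push_cast
        rw [Real.logb_self_eq_one (by norm_num)]
        linarith
      · have hd3R : (3 : ℝ) ≤ d := by exact_mod_cast h3
        nlinarith [mul_nonneg (sub_nonneg.2 hL) (sub_nonneg.2 hd3R)]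
    · have hz := h.le_mul
      have hLf : (13 / 3 : ℝ) ≤ (13 / 3 * L - 3) * f ∧ (23 / 3 : ℝ) ≤ (7 * L - 4) * f := by
        rcases Nat.lt_or_ge f 2 with h3 | h3
        · have hf1 : f = 1 := by omega
          have hp5 : 4 ≤ p := by
            by_contra hcon
            exact hcase ⟨by omega, hf1⟩
          have hL2 := two_le_logb hp5
          rw [hf1]
          push_cast
          constructor <;> linarith
        · have hf2R : (2 : ℝ) ≤ f := by exact_mod_cast h3
          constructor <;> nlinarith [mul_nonneg (sub_nonneg.2 hL) (sub_nonneg.2 hf2R)]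
      rcases Nat.lt_or_ge d 3 with h3 | h3
      · have : d = 2 := by omega
        rw [this]
        push_cast
        rw [Real.logb_self_eq_one (by norm_num)]
        nlinarith [hLf.1]
      · have hd3R : (3 : ℝ) ≤ d := by exact_mod_cast h3
        have h4 : 0 ≤ ((8 / 3 * L - 1) * f - 8 / 3) := by
          nlinarith [mul_nonneg (sub_nonneg.2 hL) (sub_nonneg.2 hfR)]
        nlinarith [hLf.2, mul_nonneg h4 (sub_nonneg.2 hd3R)]

/-- The almost simple case. -/
theorem num_simple {d a b M : ℕ} (hd : 2 ≤ d) (ha : a ≤ z)
    (hcard : 2 ^ a * (60 * 2 ^ b) ≤ ∏ i : Fin d, ((p ^ f) ^ d - (p ^ f) ^ (i : ℕ)))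
    (hM : M * (p ^ f - 1) = (p ^ f) ^ d - 1) (hb : (2 : ℝ) ^ b ≤ 3 * Real.logb 2 M) :
    ((a + 1 + b : ℕ) : ℝ) ≤ bd p d f := by
  have hf := h.one_le
  have hfR : (1 : ℝ) ≤ f := by exact_mod_cast hf
  have hdR : (2 : ℝ) ≤ d := by exact_mod_cast hd
  have haR : (a : ℝ) ≤ z := by exact_mod_cast ha
  have hp2 := h.prime.two_le
  have hL1 : (1 : ℝ) ≤ Real.logb 2 p := by
    have h1 : Real.logb 2 2 ≤ Real.logb 2 p := by
      apply Real.logb_le_logb_of_le (by norm_num) (by norm_num)
      exact_mod_cast hp2
    rwa [Real.logb_self_eq_one (by norm_num)] at h1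
  have hq2 : 2 ≤ p ^ f := by
    calc 2 ≤ p := hp2
      _ = p ^ 1 := (pow_one p).symm
      _ ≤ p ^ f := Nat.pow_le_pow_right (by omega) hf
  -- exceptional cases
  have hpos : 0 < 2 ^ a := by positivity
  have hposb : 0 < 2 ^ b := by positivity
  have h60 : 60 ≤ ∏ i : Fin d, ((p ^ f) ^ d - (p ^ f) ^ (i : ℕ)) := by
    refine le_trans ?_ hcard
    nlinarith
  -- the general estimate
  have hMpos : 0 < M := by
    rcases Nat.eq_zero_or_pos M with h0 | h0
    · rw [h0, zero_mul] at hM
      have h1 : (p ^ f) ^ 1 ≤ (p ^ f) ^ d := Nat.pow_le_pow_right (by omega) (by omega)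
      rw [pow_one] at h1
      omega
    · exact h0
  have hMle : M ≤ (p ^ f) ^ d := by
    have h1 : M * 1 ≤ M * (p ^ f - 1) := Nat.mul_le_mul_left M (by omega)
    omega
  have hlogM : Real.logb 2 M ≤ d * f * Real.logb 2 p := by
    have h1 : Real.logb 2 M ≤ Real.logb 2 (((p ^ f) ^ d : ℕ) : ℝ) := by
      apply Real.logb_le_logb_of_le (by norm_num) (by exact_mod_cast hMpos)
      exact_mod_cast hMle
    push_cast at h1
    rw [Real.logb_pow, Real.logb_pow] at h1
    linarith
  have hbest : (b : ℝ) ≤ Real.logb 2 3 + Real.logb 2 d + Real.logb 2 f +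
      Real.logb 2 (Real.logb 2 p) := by
    have h1 : (2 : ℝ) ^ b ≤ 3 * (d * f * Real.logb 2 p) := hb.trans (by linarith)
    have h2 := Real.logb_le_logb_of_le (b := 2) (by norm_num) (by positivity) h1
    rw [Real.logb_pow, Real.logb_self_eq_one (by norm_num), mul_one,
      Real.logb_mul (by norm_num) (by positivity), Real.logb_mul (by positivity) (by positivity),
      Real.logb_mul (by positivity) (by positivity)] at h2
    linarith
  have h3le := logb_two_three_le
  have hmain : (z : ℝ) + 1 + 4 / 3 + 8 / 5 + Real.logb 2 d + 2 * Real.logb 2 f +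
      Real.logb 2 (Real.logb 2 p) ≤ (8 / 3 * Real.logb 2 p - 1) * d * f →
        ((a + 1 + b : ℕ) : ℝ) ≤ bd p d f := by
    intro hx
    unfold bd
    push_cast
    linarith
  have hlf := logb_le_sub_one hf
  have hlf2 := logb_le_half hf
  have hld := logb_le_half (n := d) (by omega)
  by_cases hp : p = 2
  · subst hp
    have hlog2 : Real.logb 2 ((2 : ℕ) : ℝ) = 1 := by
      push_cast; exact Real.logb_self_eq_one (by norm_num)
    rw [hlog2, Real.logb_one] at hmain
    rcases Nat.lt_or_ge f 2 with h3 | h3
    · -- q = 2
      have hf1 : f = 1 := by omega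
      subst hf1
      have hz : z = 0 := h.z_one rfl rfl
      rcases Nat.lt_or_ge d 4 with h4 | h4
      · have : d = 2 ∨ d = 3 := by omega
        rcases this with rfl | rfl
        · exfalso
          rw [Fin.prod_univ_two] at h60
          norm_num at h60
        · rw [Fin.prod_univ_three] at hcard
          norm_num at hcard
          have ha0 : a = 0 := by omega
          have hb1 : b ≤ 1 := by
            by_contra hcon
            have : 2 ^ 2 ≤ 2 ^ b := Nat.pow_le_pow_right (by norm_num) (by omega)
            rw [ha0, pow_zero, one_mul] at hcard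
            omega
          have hb1R : (b : ℝ) ≤ 1 := by exact_mod_cast hb1
          unfold bd
          rw [hlog2, ha0]
          push_cast
          rw [Real.logb_one]
          linarith
      · apply hmain
        have hd4R : (4 : ℝ) ≤ d := by exact_mod_cast h4
        rw [hz]
        push_cast
        rw [Real.logb_one]
        linarith
    · rcases Nat.lt_or_ge f 3 with h4 | h4
      · -- q = 4
        have hf2 : f = 2 := by omega
        subst hf2
        have hz : z ≤ 1 := h.z_two rfl rfl
        have hzR : (z : ℝ) ≤ 1 := by exact_mod_cast hz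
        rcases Nat.lt_or_ge d 3 with h5 | h5
        · have : d = 2 := by omega
          subst this
          rw [Fin.prod_univ_two] at hcard
          norm_num at hcard
          have hab : a + b ≤ 1 := by
            by_contra hcon
            have h6 : 2 ^ 2 ≤ 2 ^ (a + b) := Nat.pow_le_pow_right (by norm_num) (by omega)
            rw [pow_add] at h6
            nlinarith
          have habR : (a : ℝ) + b ≤ 1 := by exact_mod_cast hab
          unfold bd
          rw [hlog2]
          push_cast
          linarith
        · apply hmain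
          have hd3R : (3 : ℝ) ≤ d := by exact_mod_cast h5
          push_cast
          rw [Real.logb_self_eq_one (by norm_num)]
          linarith
      · rcases Nat.lt_or_ge f 4 with h5 | h5
        · -- q = 8
          have hf3 : f = 3 := by omega
          subst hf3
          apply hmain
          have hzR : (z : ℝ) ≤ 1 := by exact_mod_cast h.z_three rfl rfl
          push_cast
          rcases Nat.lt_or_ge d 3 with h6 | h6
          · have : d = 2 := by omega
            subst this
            push_cast
            rw [Real.logb_self_eq_one (by norm_num)]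
            linarith
          · have hd3R : (3 : ℝ) ≤ d := by exact_mod_cast h6
            linarith
        · apply hmain
          have hz := h.le_two rfl
          have hf4R : (4 : ℝ) ≤ f := by exact_mod_cast h5
          nlinarith [mul_nonneg (sub_nonneg.2 hdR) (sub_nonneg.2 hf4R)]
  · have hp3 : 3 ≤ p := by omega
    have hL := le_logb_of_three_le hp3
    have hLL := logb_real_le (x := Real.logb 2 p) (by linarith)
    have hz := h.le_mul
    set L := Real.logb 2 p with hLdef
    rcases Nat.lt_or_ge f 2 with h3 | h3
    · have hf1 : f = 1 := by omega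
      subst hf1
      by_cases hp3' : p = 3 ∧ d = 2
      · exfalso
        obtain ⟨rfl, rfl⟩ := hp3'
        rw [Fin.prod_univ_two] at h60
        norm_num at h60
      · apply hmain
        push_cast
        rw [Real.logb_one]
        rcases Nat.lt_or_ge d 3 with h6 | h6
        · have hd2 : d = 2 := by omega
          have hp4 : 4 ≤ p := by
            by_contra hcon
            exact hp3' ⟨by omega, hd2⟩
          have hL2 := two_le_logb hp4
          rw [hd2]
          push_cast
          rw [Real.logb_self_eq_one (by norm_num)]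
          push_cast at hz
          linarith
        · have hd3R : (3 : ℝ) ≤ d := by exact_mod_cast h6
          push_cast at hz
          nlinarith [mul_nonneg (sub_nonneg.2 hL) (sub_nonneg.2 hd3R)]
    · apply hmain
      have hf2R : (2 : ℝ) ≤ f := by exact_mod_cast h3
      have e1 := mul_nonneg (sub_nonneg.2 hL) (sub_nonneg.2 hf2R)
      have e2 := mul_nonneg (sub_nonneg.2 hL) (sub_nonneg.2 hdR)
      have e3 := mul_nonneg (sub_nonneg.2 hdR) (sub_nonneg.2 hf2R)
      have e4 := mul_nonneg e2 (sub_nonneg.2 hf2R)
      nlinarith [e1, e2, e3, e4]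

end ZB

end Cfsg.Agent.H894
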