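import Cfsg.Agent.H894.ThLine.Num
import Cfsg.Agent.H894.DefZero
import Cfsg.Agent.S0135

/-!
# Characters of defect zero of the Thompson group (helper894)

* `thompson_degree`: the degrees `d * 30507008`, `d * 28861000`, `d * 61256`, `d * 4881384`, `d * 91171899`, `d * 72925515`;
* `exists_defect_zero`: for every prime `p` an irreducible character of `p`-defect zero and degree `≠ 1`;
* `nb_Th`: more than one 2-block.
-/

set_option autoImplicit false

open Cfsg

namespace Cfsg.Agent.H894.ThTwo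

open ThLine

universe u

theorem charDegree_dvd {G : Type*} [Group G] [Finite G] (χ : IrrCharacter G) : charDegree (χ : G → ℂ) ∣ Nat.card G := by
  obtain ⟨n, ρ, hρ, hχ⟩ := χ.2
  have h1 : charDegree (χ : G → ℂ) = n := by
    unfold charDegree
    rw [← hχ, Representation.char_one, Module.finrank_fin_fun]
    simp
  have h2 := S0135.result ρ
  rw [Module.finrank_fin_fun] at h2
  rwa [h1]

/-- from a degree to defect zero -/
theorem dz_of {G : Type*} [Group G] [Finite G] {N K p : ℕ} (hK : Nat.card G = N * K) (hN : 0 < N)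
    (hp : ¬ p ∣ K) (h : ∃ (χ : IrrCharacter G) (d : ℕ), charDegree (χ : G → ℂ) = d * N) (hN1 : N ≠ 1) :
    ∃ χ : IrrCharacter G, charDegree (χ : G → ℂ) ≠ 1 ∧ ¬ p ∣ Nat.card G / charDegree (χ : G → ℂ) := by
  obtain ⟨χ, d, h⟩ := h
  refine ⟨χ, ?_, ?_⟩
  · rw [h]
    intro h1
    exact hN1 (Nat.eq_one_of_mul_eq_one_left h1)
  · intro hd
    apply hp
    have h2 := Nat.div_mul_cancel (charDegree_dvd χ)
    rw [hK] at h2 hd
    refine hd.trans ?_
    generalize N * K / charDegree (χ : G → ℂ) = q at h2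
    rw [h] at h2
    have h3 : N * (q * d) = N * K := by rw [← h2]; ring
    have h4 := Nat.eq_of_mul_eq_mul_left hN h3
    exact ⟨d, h4.symm⟩

/-- **a character of `p`-defect zero for every prime** -/
theorem exists_defect_zero (p : ℕ) (hp : p.Prime) :
    ∃ χ : IrrCharacter Cfsg.Spor.Th, charDegree (χ : Cfsg.Spor.Th → ℂ) ≠ 1 ∧
      ¬ p ∣ Nat.card Cfsg.Spor.Th / charDegree (χ : Cfsg.Spor.Th → ℂ) := by
  have hc := Cfsg.Agent.Th.Final.card_Th
  by_cases h2 : p ∣ 3 ^ 10 * 5 ^ 3 * 13 * 31
  · by_cases h3 : p ∣ 3 ^ 10 * 13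
    · by_cases h4 : p ∣ 13
      · refine dz_of (K := 90745943887872000 / 61256) (by rw [hc]) (by norm_num) ?_ deg90 (by norm_num)
        have : p = 13 := (Nat.prime_dvd_prime_iff_eq hp (by norm_num)).1 h4
        subst this
        norm_num
      · refine dz_of (K := 90745943887872000 / 72925515) (by rw [hc]) (by norm_num) ?_ deg14 (by norm_num)
        have h5 : p ∣ 3 ^ 10 := (hp.dvd_mul.1 h3).resolve_right h4
        have : p = 3 := (Nat.prime_dvd_prime_iff_eq hp (by norm_num)).1 (hp.dvd_of_dvd_pow h5)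
        subst this
        norm_num
    · refine dz_of (K := 90745943887872000 / 28861000) (by rw [hc]) (by norm_num) ?_ deg18 (by norm_num)
      have h5 : p ∣ 5 ^ 3 * 31 := by
        have h6 : 3 ^ 10 * 5 ^ 3 * 13 * 31 = (3 ^ 10 * 13) * (5 ^ 3 * 31) := by norm_num
        rw [h6] at h2
        exact (hp.dvd_mul.1 h2).resolve_left h3
      rcases hp.dvd_mul.1 h5 with h5 | h5
      · have : p = 5 := (Nat.prime_dvd_prime_iff_eq hp (by norm_num)).1 (hp.dvd_of_dvd_pow h5)
        subst this
        norm_num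
      · have : p = 31 := (Nat.prime_dvd_prime_iff_eq hp (by norm_num)).1 h5
        subst this
        norm_num
  · refine dz_of (K := 3 ^ 10 * 5 ^ 3 * 13 * 31) (by rw [hc]; norm_num) (by norm_num) h2 deg45 (by norm_num)

/-- **the Thompson group has more than one 2-block** -/
theorem nb : H526.OB.NB Cfsg.Spor.Th := by
  obtain ⟨χ, h1, h2⟩ := exists_defect_zero 2 Nat.prime_two
  exact DefZero.nb_of_degree χ h1 h2

/-- the row of `Th` -/
theorem nb_Th {S : Type u} [Group S] [Finite S] (h : Cfsg.Spor.IsoTh S) : H526.OB.NB S := by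
  obtain ⟨e⟩ := h
  exact nb.iso e.symm

end Cfsg.Agent.H894.ThTwo
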